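import Mathlib
import Cfsg.Agent.S0713
import Cfsg.Agent.Involutions.IndexFive

/-!
# Simple subgroups of order 20160 of `A₁₀` normalised by a Sylow 2-subgroup (helper605)
-/

set_option autoImplicit false
set_option linter.unusedSectionVars false

namespace Cfsg.Agent.H605.A10

open Subgroup Equiv MulAction
open scoped Pointwise

theorem fix_of_small {H : Type*} [Group H] [Finite H] [IsSimpleGroup H] (cH : Nat.card H = 20160) {X : Type*}
    [MulAction H X] (x : X) (h : (orbit H x).ncard ≤ 7) (g : H) : g • x = x := by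
  by_cases hs : stabilizer H x = ⊤
  · have : g ∈ stabilizer H x := hs ▸ Subgroup.mem_top g
    exact this
  · exfalso
    have h1 := Involutions.IndexFive.card_dvd_factorial_index (stabilizer H x) hs
    rw [index_stabilizer, cH] at h1
    have h2 : (orbit H x).ncard.factorial ≤ Nat.factorial 7 := Nat.factorial_le h
    have h3 := Nat.le_of_dvd (Nat.factorial_pos _) h1
    have h4 : Nat.factorial 7 = 5040 := rfl
    omega

variable (G : Subgroup (Perm (Fin 10))) [IsSimpleGroup ↥G] (cG : Nat.card ↥G = 20160)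

include cG

theorem exists_big : ∃ i : Fin 10, 8 ≤ (orbit G i).ncard := by
  by_contra hcon
  push Not at hcon
  have h1 : ∀ σ ∈ G, σ = 1 := by
    intro σ hσ
    refine Equiv.ext fun i => ?_
    exact fix_of_small cG i (by have := hcon i; omega) ⟨σ, hσ⟩
  have h2 : G = ⊥ := by
    rw [eq_bot_iff]
    intro σ hσ
    exact mem_bot.2 (h1 σ hσ)
  rw [h2, Subgroup.card_bot] at cG
  omega

theorem fix_of_notMem {i : Fin 10} (hi : 8 ≤ (orbit G i).ncard) {j : Fin 10} (hj : j ∉ orbit G i) {σ : Perm (Fin 10)}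
    (hσ : σ ∈ G) : σ j = j := by
  refine fix_of_small cG j ?_ ⟨σ, hσ⟩
  have h1 : orbit G j ⊆ (orbit G i)ᶜ := by
    intro k hk hki
    apply hj
    have h2 := (orbit_eq_iff (G := G)).2 hk
    have h3 := (orbit_eq_iff (G := G)).2 hki
    rw [← h3, h2]
    exact mem_orbit_self j
  have h2 := Set.ncard_le_ncard h1 (Set.toFinite _)
  have h3 := Set.ncard_add_ncard_compl (orbit G i)
  rw [Nat.card_eq_fintype_card, Fintype.card_fin] at h3
  omega

theorem not_trans (i : Fin 10) : (orbit G i).ncard ≠ 10 := by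
  intro h10
  have huniv : orbit G i = Set.univ := by
    refine Set.eq_of_subset_of_ncard_le (Set.subset_univ _) ?_ (Set.toFinite _)
    rw [h10, Set.ncard_univ, Nat.card_eq_fintype_card, Fintype.card_fin]
  have htr : IsPretransitive ↥G (Fin 10) := by
    refine ⟨fun x y => ?_⟩
    obtain ⟨g, hg⟩ : x ∈ orbit G i := huniv ▸ Set.mem_univ x
    obtain ⟨g', hg'⟩ : y ∈ orbit G i := huniv ▸ Set.mem_univ y
    refine ⟨g' * g⁻¹, ?_⟩
    have hg1 : g • i = x := hg
    have hg1' : g' • i = y := hg'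
    rw [mul_smul, ← hg1, inv_smul_smul, hg1']
  have hprim : IsPreprimitive ↥G (Fin 10) := by
    refine { isTrivialBlock_of_isBlock := fun {B} hB => ?_ }
    by_contra hcon
    have hcon' : ¬ (B.Subsingleton ∨ B = Set.univ) := hcon
    push Not at hcon'
    obtain ⟨h1, h2⟩ := hcon'
    have hne : B.Nonempty := h1.nonempty
    have h3 := hB.ncard_block_mul_ncard_orbit_eq hne
    rw [Nat.card_eq_fintype_card, Fintype.card_fin] at h3
    have h4 : 1 < B.ncard := by
      rw [Set.one_lt_ncard_iff_nontrivial]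
      exact h1
    have h5 : (orbit G B).ncard ≤ 7 := by nlinarith
    have h6 : ∀ g : ↥G, g • B = B := fix_of_small cG B h5
    apply h2
    rw [Set.eq_univ_iff_forall]
    intro y
    obtain ⟨x, hx⟩ := hne
    obtain ⟨g, hg⟩ := htr.exists_smul_eq x y
    rw [← h6 g, ← hg]
    exact Set.smul_mem_smul_set hx
  have : Fact (Nat.Prime 7) := ⟨by norm_num⟩
  obtain ⟨g, hg⟩ := exists_prime_orderOf_dvd_card' (G := ↥G) 7 (by rw [cG]; norm_num)
  have hg' : orderOf g.1 = 7 := by rw [Subgroup.orderOf_coe, hg]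
  have hcyc : g.1.IsCycle := Perm.isCycle_of_prime_order' (by rw [hg']; norm_num) (by
    rw [hg', Fintype.card_fin]; norm_num)
  have hsup : g.1.support.card = 7 := by rw [← hcyc.orderOf, hg']
  have h1 := S0713.result G hprim (p := 7) (by norm_num) (by rw [Fintype.card_fin]; norm_num)
    (by rw [Fintype.card_fin]) hcyc hsup g.2
  have h2 := Subgroup.card_le_of_le h1
  have h3 : 2 * Nat.card ↥(alternatingGroup (Fin 10)) = Nat.factorial 10 := by
    rw [Nat.card_eq_fintype_card, two_mul_card_alternatingGroup, Fintype.card_perm, Fintype.card_fin]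
  have h4 : Nat.factorial 10 = 3628800 := rfl
  omega

omit cG in
theorem card_alt10 : Nat.card ↥(alternatingGroup (Fin 10)) = 1814400 := by
  have h3 : 2 * Nat.card ↥(alternatingGroup (Fin 10)) = Nat.factorial 10 := by
    rw [Nat.card_eq_fintype_card, two_mul_card_alternatingGroup, Fintype.card_perm, Fintype.card_fin]
  have h4 : Nat.factorial 10 = 3628800 := rfl
  omega

omit [IsSimpleGroup ↥G] cG in
/-- an element normalising `G` preserves the fixed points of `G` -/
theorem fix_norm {σ : Perm (Fin 10)} (hσ : ∀ τ ∈ G, σ⁻¹ * τ * σ ∈ G) {j : Fin 10} (hj : ∀ τ ∈ G, τ j = j)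
    {τ : Perm (Fin 10)} (hτ : τ ∈ G) : τ (σ j) = σ j := by
  have h1 := hj _ (hσ τ hτ)
  have h2 : (σ⁻¹ * τ * σ) j = σ⁻¹ (τ (σ j)) := rfl
  rw [h2] at h1
  have h3 := congrArg σ h1
  exact (σ.apply_symm_apply _).symm.trans h3

variable (P : Subgroup (Perm (Fin 10))) (hPA : P ≤ alternatingGroup (Fin 10)) (cP : Nat.card ↥P = 128)
  (hPG : ∀ σ ∈ P, ∀ τ ∈ G, σ * τ * σ⁻¹ ∈ G)

omit cG in
include hPA cP in
theorem not_fix (d : Fin 10) : ∃ σ ∈ P, σ d ≠ d := by
  by_contra hcon
  push Not at hcon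
  have h1 : P.subgroupOf (alternatingGroup (Fin 10)) ≤ stabilizer ↥(alternatingGroup (Fin 10)) d := by
    intro σ hσ
    exact hcon σ.1 hσ
  have h2 := Subgroup.card_dvd_of_le h1
  have h3 : Nat.card ↥(P.subgroupOf (alternatingGroup (Fin 10))) = 128 := by
    rw [← cP]
    exact Nat.card_congr (Subgroup.subgroupOfEquivOfLe hPA).toEquiv
  have h4 := (stabilizer ↥(alternatingGroup (Fin 10)) d).card_mul_index
  have htr : IsPretransitive ↥(alternatingGroup (Fin 10)) (Fin 10) :=
    alternatingGroup.isPretransitive_of_three_le_card (Fin 10) (by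
      rw [Nat.card_eq_fintype_card, Fintype.card_fin]; norm_num)
  rw [index_stabilizer_of_transitive, card_alt10, Nat.card_eq_fintype_card (α := Fin 10), Fintype.card_fin] at h4
  rw [h3] at h2
  omega

omit [IsSimpleGroup ↥G] cG G in
/-- the order of the pointwise stabiliser of two points -/
theorem card_two {a b : Fin 10} (hab : a ≠ b) :
    Nat.card ↥(fixingSubgroup ↥(alternatingGroup (Fin 10)) ({a, b} : Set (Fin 10))) = 20160 := by
  have h1 : IsMultiplyPretransitive ↥(alternatingGroup (Fin 10)) (Fin 10) 2 := by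
    have h0 := alternatingGroup.isMultiplyPretransitive (Fin 10)
    refine isMultiplyPretransitive_of_le (n := Nat.card (Fin 10) - 2) ?_ ?_
    · rw [Nat.card_eq_fintype_card, Fintype.card_fin]; norm_num
    · simp
  have h2 := h1.index_of_fixingSubgroup_mul (s := ({a, b} : Set (Fin 10))) (Set.ncard_pair hab)
  rw [Nat.card_eq_fintype_card, Fintype.card_fin] at h2
  have h3 := (fixingSubgroup ↥(alternatingGroup (Fin 10)) ({a, b} : Set (Fin 10))).card_mul_index
  rw [card_alt10] at h3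
  have h4 : Nat.factorial (10 - 2) = 40320 := rfl
  have h5 : Nat.factorial 10 = 3628800 := rfl
  rw [h4, h5] at h2
  have h6 : (fixingSubgroup ↥(alternatingGroup (Fin 10)) ({a, b} : Set (Fin 10))).index = 90 := by omega
  rw [h6] at h3
  omega

include hPA cP hPG in
/-- **`G` is the pointwise stabiliser of two points.** -/
theorem exists_pair (hA : G ≤ alternatingGroup (Fin 10)) : ∃ a b : Fin 10, a ≠ b ∧
    (∀ σ : Perm (Fin 10), σ ∈ G ↔ Perm.sign σ = 1 ∧ σ a = a ∧ σ b = b) ∧
    ∀ i, i ≠ a → i ≠ b → ∀ j, j ≠ a → j ≠ b → ∃ τ ∈ G, τ i = j := by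
  obtain ⟨i, hi⟩ := exists_big G cG
  have h1 := Set.ncard_add_ncard_compl (orbit G i)
  rw [Nat.card_eq_fintype_card, Fintype.card_fin] at h1
  have h10 := not_trans G cG i
  have hfix : ∀ j, j ∉ orbit G i → ∀ σ ∈ G, σ j = j := fun j hj σ hσ => fix_of_notMem G cG hi hj hσ
  have hmv : ∀ j ∈ orbit G i, ¬ ∀ σ ∈ G, σ j = j := by
    intro j hj hcon
    have h2 : orbit G j = {j} := by
      ext k
      constructor
      · rintro ⟨g, rfl⟩
        exact hcon g.1 g.2
      · rintro rfl
        exact mem_orbit_self k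
    have h3 := (orbit_eq_iff (G := G)).2 hj
    rw [← h3, h2, Set.ncard_singleton] at hi
    omega
  have h9 : (orbit G i).ncard ≠ 9 := by
    intro h9
    have h2 : (orbit G i)ᶜ.ncard = 1 := by omega
    obtain ⟨d, hd⟩ := Set.ncard_eq_one.1 h2
    obtain ⟨σ, hσ, hσd⟩ := not_fix P hPA cP d
    apply hσd
    have hd' : ∀ τ ∈ G, τ d = d := hfix d (by
      have : d ∈ (orbit G i)ᶜ := hd ▸ Set.mem_singleton d
      exact this)
    have h3 : σ d ∈ (orbit G i)ᶜ := by
      intro hcon
      refine hmv _ hcon fun τ hτ => fix_norm G (fun τ' hτ' => ?_) hd' hτ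
      have := hPG σ⁻¹ (inv_mem hσ) τ' hτ'
      rwa [inv_inv] at this
    rw [hd] at h3
    exact h3
  have h8 : (orbit G i)ᶜ.ncard = 2 := by omega
  obtain ⟨a, b, hab, hO⟩ := Set.ncard_eq_two.1 h8
  have hmem : ∀ j, j ∈ orbit G i ↔ j ≠ a ∧ j ≠ b := by
    intro j
    have h2 : j ∈ (orbit G i)ᶜ ↔ j = a ∨ j = b := by rw [hO]; rfl
    rw [Set.mem_compl_iff] at h2
    tauto
  refine ⟨a, b, hab, ?_, ?_⟩
  · have hle : G ≤ (fixingSubgroup ↥(alternatingGroup (Fin 10)) ({a, b} : Set (Fin 10))).map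
        (alternatingGroup (Fin 10)).subtype := by
      intro σ hσ
      refine ⟨⟨σ, hA hσ⟩, ?_, rfl⟩
      rw [SetLike.mem_coe, mem_fixingSubgroup_iff]
      rintro y (rfl | rfl)
      · exact hfix y (fun h => ((hmem y).1 h).1 rfl) σ hσ
      · exact hfix y (fun h => ((hmem y).1 h).2 rfl) σ hσ
    have heq := Subgroup.eq_of_le_of_card_ge hle (by
      rw [Nat.card_congr (Subgroup.equivMapOfInjective _ _ (Subgroup.subtype_injective _)).symm.toEquiv, card_two hab,
        cG])
    intro σ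
    constructor
    · intro hσ
      exact ⟨hA hσ, hfix a (fun h => ((hmem a).1 h).1 rfl) σ hσ, hfix b (fun h => ((hmem b).1 h).2 rfl) σ hσ⟩
    · rintro ⟨h2, h3, h4⟩
      rw [heq]
      refine ⟨⟨σ, h2⟩, ?_, rfl⟩
      rw [SetLike.mem_coe, mem_fixingSubgroup_iff]
      rintro y (rfl | rfl)
      · exact h3
      · exact h4
  · intro j hj1 hj2 k hk1 hk2
    obtain ⟨g, hg⟩ := (hmem j).2 ⟨hj1, hj2⟩
    obtain ⟨g', hg'⟩ := (hmem k).2 ⟨hk1, hk2⟩
    refine ⟨(g' * g⁻¹ : ↥G).1, (g' * g⁻¹).2, ?_⟩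
    have h2 : g.1 i = j := hg
    have h3 : g'.1 i = k := hg'
    rw [← h2, ← h3]
    show g'.1 (g.1⁻¹ (g.1 i)) = g'.1 i
    exact congrArg g'.1 (g.1.symm_apply_apply i)

end Cfsg.Agent.H605.A10
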