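import Mathlib
import Cfsg.Agent.H605.A10.Perm

/-!
# The central involution of a Sylow 2-subgroup of `A₁₀` (helper605)
-/

set_option autoImplicit false
set_option linter.unusedSectionVars false

namespace Cfsg.Agent.H605.A10

open Subgroup Equiv MulAction
open scoped Pointwise

/-- cycle types of the permutations of ten points of 2-power order whose centraliser has order divisible by 128 -/
theorem cycleType_of {ζ : Perm (Fin 10)} (h1 : orderOf ζ ∣ 128) (h2 : 128 ∣ Nat.card ↥(centralizer ({ζ} : Set (Perm (Fin 10)))))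
    (h3 : Perm.sign ζ = 1) (h4 : ζ ≠ 1) : ζ.cycleType = Multiset.replicate 2 2 ∨ ζ.cycleType = Multiset.replicate 4 2 := by
  set m := ζ.cycleType with hm
  have hsum : m.sum ≤ 10 := by
    rw [hm, Perm.sum_cycleType]
    exact (Finset.card_le_univ _).trans (by rw [Fintype.card_fin])
  have hmem : ∀ n ∈ m, n = 2 ∨ n = 4 ∨ n = 8 := by
    intro n hn
    have h5 := (Perm.dvd_of_mem_cycleType hn).trans h1
    have h6 := Perm.two_le_of_mem_cycleType hn
    have h7 : n ≤ 10 := (Multiset.single_le_sum (fun _ _ => Nat.zero_le _) n hn).trans hsum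
    interval_cases n <;> simp_all
  set a := m.count 2 with ha
  set b := m.count 4 with hb
  set c := m.count 8 with hc
  have hmr : m = Multiset.replicate a 2 + Multiset.replicate b 4 + Multiset.replicate c 8 := by
    ext n
    rw [Multiset.count_add, Multiset.count_add, Multiset.count_replicate, Multiset.count_replicate,
      Multiset.count_replicate]
    by_cases hn : n ∈ m
    · rcases hmem n hn with rfl | rfl | rfl <;> simp [ha, hb, hc]
    · rw [Multiset.count_eq_zero_of_notMem hn]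
      by_cases h2 : n = 2
      · subst h2
        have : a = 0 := Multiset.count_eq_zero_of_notMem hn
        simp [this]
      · by_cases h4 : n = 4
        · subst h4
          have : b = 0 := Multiset.count_eq_zero_of_notMem hn
          simp [this]
        · by_cases h8 : n = 8
          · subst h8
            have : c = 0 := Multiset.count_eq_zero_of_notMem hn
            simp [this]
          · rw [if_neg (Ne.symm h2), if_neg (Ne.symm h4), if_neg (Ne.symm h8)]
  have hs : m.sum = 2 * a + 4 * b + 8 * c := by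
    rw [hmr, Multiset.sum_add, Multiset.sum_add, Multiset.sum_replicate, Multiset.sum_replicate,
      Multiset.sum_replicate, smul_eq_mul, smul_eq_mul, smul_eq_mul]
    ring
  have hp : m.prod = 2 ^ a * 4 ^ b * 8 ^ c := by
    rw [hmr, Multiset.prod_add, Multiset.prod_add, Multiset.prod_replicate, Multiset.prod_replicate,
      Multiset.prod_replicate]
  have hq : (∏ n ∈ m.toFinset, (m.count n).factorial) = a.factorial * b.factorial * c.factorial := by
    have h5 : m.toFinset ⊆ ({2, 4, 8} : Finset ℕ) := by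
      intro n hn
      rw [Multiset.mem_toFinset] at hn
      simp only [Finset.mem_insert, Finset.mem_singleton]
      exact hmem n hn
    rw [Finset.prod_subset h5 (fun n _ hn => by
      rw [Multiset.mem_toFinset] at hn
      rw [Multiset.count_eq_zero_of_notMem hn]; rfl)]
    rw [Finset.prod_insert (by simp), Finset.prod_insert (by simp), Finset.prod_singleton, mul_assoc]
  rw [Perm.nat_card_centralizer, ← hm, hs, hp, hq, Fintype.card_fin] at h2
  rw [hs] at hsum
  have hkey : ∀ a b c : ℕ, a < 6 → b < 3 → c < 2 → 2 * a + 4 * b + 8 * c ≤ 10 →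
      128 ∣ (10 - (2 * a + 4 * b + 8 * c)).factorial * (2 ^ a * 4 ^ b * 8 ^ c) *
        (a.factorial * b.factorial * c.factorial) → b = 0 ∧ c = 0 := by
    intro a b c ha hb hc
    interval_cases a <;> interval_cases b <;> interval_cases c <;> decide
  obtain ⟨hb0, hc0⟩ := hkey a b c (by omega) (by omega) (by omega) hsum h2
  rw [hb0, hc0] at hmr
  simp only [Multiset.replicate_zero, add_zero] at hmr
  have hsg := Perm.sign_of_cycleType ζ
  rw [h3, ← hm, hmr, Multiset.sum_replicate, Multiset.card_replicate, smul_eq_mul] at hsg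
  have ha5 : a < 6 := by omega
  have ha0 : a ≠ 0 := by
    intro h0
    apply h4
    rw [← Perm.cycleType_eq_zero, ← hm, hmr, h0, Multiset.replicate_zero]
  rw [hmr]
  interval_cases a
  · exact absurd rfl ha0
  · exact absurd hsg (by decide)
  · exact Or.inl rfl
  · exact absurd hsg (by decide)
  · exact Or.inr rfl
  · exact absurd hsg (by decide)

variable {G P : Subgroup (Perm (Fin 10))} {a b : Fin 10}

/-- `P` preserves `{a, b}` -/
theorem pair_inv (hab : ∀ σ : Perm (Fin 10), σ ∈ G ↔ Perm.sign σ = 1 ∧ σ a = a ∧ σ b = b)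
    (htr : ∀ i, i ≠ a → i ≠ b → ∀ j, j ≠ a → j ≠ b → ∃ τ ∈ G, τ i = j) (hn : a ≠ b)
    {σ : Perm (Fin 10)} (hσ : ∀ τ ∈ G, σ⁻¹ * τ * σ ∈ G) {j : Fin 10} (hj : j = a ∨ j = b) : σ j = a ∨ σ j = b := by
  by_contra hcon
  push Not at hcon
  have h1 : ∀ τ ∈ G, τ (σ j) = σ j := fun τ hτ => fix_norm G hσ (fun τ' hτ' => by
    rcases hj with rfl | rfl
    · exact ((hab τ').1 hτ').2.1
    · exact ((hab τ').1 hτ').2.2) hτ
  obtain ⟨k, hk1, hk2, hk3⟩ : ∃ k : Fin 10, k ≠ a ∧ k ≠ b ∧ k ≠ σ j := by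
    have : ∀ a b c : Fin 10, ∃ k, k ≠ a ∧ k ≠ b ∧ k ≠ c := by decide
    exact this a b (σ j)
  obtain ⟨τ, hτ, h2⟩ := htr _ hcon.1 hcon.2 k hk1 hk2
  exact hk3 (h2.symm.trans (h1 τ hτ))

/-- a Sylow 2-subgroup is transitive on the remaining points -/
theorem orbit_ge (hPA : P ≤ alternatingGroup (Fin 10)) (cP : Nat.card ↥P = 128)
    (hab : ∀ σ : Perm (Fin 10), σ ∈ G ↔ Perm.sign σ = 1 ∧ σ a = a ∧ σ b = b)
    (htr : ∀ i, i ≠ a → i ≠ b → ∀ j, j ≠ a → j ≠ b → ∃ τ ∈ G, τ i = j) (hn : a ≠ b)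
    (hP : ∀ σ ∈ P, ∀ j, j = a ∨ j = b → σ j = a ∨ σ j = b) {i : Fin 10} (hia : i ≠ a) (hib : i ≠ b) :
    8 ≤ (orbit P i).ncard := by
  set N : Subgroup (Perm (Fin 10)) := alternatingGroup (Fin 10) ⊓ stabilizer (Perm (Fin 10)) ({a, b} : Set (Fin 10))
    with hN
  have hmem : ∀ σ : Perm (Fin 10), Perm.sign σ = 1 → (∀ j, j = a ∨ j = b → σ j = a ∨ σ j = b) → σ ∈ N := by
    intro σ h1 h2
    refine mem_inf.2 ⟨h1, ?_⟩
    rw [mem_stabilizer_iff]
    refine Set.eq_of_subset_of_ncard_le ?_ ?_ (Set.toFinite _)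
    · rintro _ ⟨j, hj, rfl⟩
      exact h2 j hj
    · rw [Set.ncard_smul_set]
  have hPN : P ≤ N := fun σ hσ => hmem σ (hPA hσ) (hP σ hσ)
  have hGN : G ≤ N := fun σ hσ => hmem σ ((hab σ).1 hσ).1 (by
    rintro j (rfl | rfl)
    · exact Or.inl ((hab σ).1 hσ).2.1
    · exact Or.inr ((hab σ).1 hσ).2.2)
  have horb : orbit N i = ({a, b} : Set (Fin 10))ᶜ := by
    ext j
    constructor
    · rintro ⟨g, rfl⟩ hj
      have h1 : g.1⁻¹ • ({a, b} : Set (Fin 10)) = {a, b} := by
        have := (mem_inf.1 g.2).2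
        rw [mem_stabilizer_iff] at this
        conv_lhs => rw [← this]
        rw [inv_smul_smul]
      have h2 : g.1⁻¹ (g.1 i) ∈ ({a, b} : Set (Fin 10)) := by
        rw [← h1]
        exact Set.smul_mem_smul_set hj
      have h3 : g.1⁻¹ (g.1 i) = i := g.1.symm_apply_apply i
      rw [h3] at h2
      rcases h2 with h2 | h2
      · exact hia h2
      · exact hib h2
    · intro hj
      have hj' : ¬ (j = a ∨ j = b) := hj
      push Not at hj'
      obtain ⟨τ, hτ, h1⟩ := htr i hia hib j hj'.1 hj'.2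
      exact ⟨⟨τ, hGN hτ⟩, h1⟩
  have h8 : (orbit N i).ncard = 8 := by
    rw [horb]
    have h1 := Set.ncard_add_ncard_compl ({a, b} : Set (Fin 10))
    rw [Set.ncard_pair hn, Nat.card_eq_fintype_card, Fintype.card_fin] at h1
    omega
  have h1 := (stabilizer N i).card_mul_index
  rw [index_stabilizer, h8] at h1
  have h2 : Nat.card ↥N ∣ 1814400 := by
    rw [← card_alt10]
    exact Subgroup.card_dvd_of_le inf_le_left
  let f : ↥(stabilizer P i) →* ↥(stabilizer N i) :=
    { toFun := fun x => ⟨⟨x.1.1, hPN x.1.2⟩, x.2⟩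
      map_one' := rfl
      map_mul' := fun _ _ => rfl }
  have h3 : Nat.card ↥(stabilizer P i) ∣ Nat.card ↥(stabilizer N i) := Subgroup.card_dvd_of_injective f (by
    intro x y hxy
    have : x.1.1 = y.1.1 := congrArg (fun z : ↥(stabilizer N i) => z.1.1) hxy
    exact Subtype.ext (Subtype.ext this))
  have h4 := (stabilizer P i).card_mul_index
  rw [index_stabilizer, cP] at h4
  have h5 : Nat.card ↥(stabilizer P i) * 8 ∣ 1814400 := (Nat.mul_dvd_mul_right h3 8).trans (h1 ▸ h2)
  have h6 : Nat.card ↥(stabilizer P i) ∣ 128 := ⟨_, h4.symm⟩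
  by_contra hcon
  push Not at hcon
  have h7 : 16 < Nat.card ↥(stabilizer P i) := by
    by_contra h
    push Not at h
    nlinarith
  have hkey : ∀ d ∈ Nat.divisors 128, 16 < d → ¬ d * 8 ∣ 1814400 := by decide
  exact hkey _ (Nat.mem_divisors.2 ⟨h6, by norm_num⟩) h7 h5

/-- **The central involution.** -/
theorem zeta (hPA : P ≤ alternatingGroup (Fin 10)) (cP : Nat.card ↥P = 128)
    (hab : ∀ σ : Perm (Fin 10), σ ∈ G ↔ Perm.sign σ = 1 ∧ σ a = a ∧ σ b = b)
    (htr : ∀ i, i ≠ a → i ≠ b → ∀ j, j ≠ a → j ≠ b → ∃ τ ∈ G, τ i = j) (hn : a ≠ b)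
    (hP : ∀ σ ∈ P, ∀ j, j = a ∨ j = b → σ j = a ∨ σ j = b) {ζ : Perm (Fin 10)} (hζ : ζ ∈ P) (hζ1 : ζ ≠ 1)
    (hc : ∀ σ ∈ P, σ * ζ = ζ * σ) : ζ.cycleType = Multiset.replicate 4 2 ∧ ζ a = a ∧ ζ b = b := by
  have h1 : orderOf ζ ∣ 128 := by
    rw [← cP, ← Subgroup.orderOf_mk ζ hζ]
    exact orderOf_dvd_natCard _
  have h2 : 128 ∣ Nat.card ↥(centralizer ({ζ} : Set (Perm (Fin 10)))) := by
    rw [← cP]
    refine Subgroup.card_dvd_of_le fun σ hσ => ?_
    rw [mem_centralizer_singleton_iff]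
    exact hc σ hσ
  have h3 := cycleType_of h1 h2 (hPA hζ) hζ1
  have hs : 4 ≤ ζ.support.card := by
    rw [← Perm.sum_cycleType]
    rcases h3 with h | h <;> rw [h] <;> decide
  obtain ⟨i, hi, hi1, hi2⟩ : ∃ i ∈ ζ.support, i ≠ a ∧ i ≠ b := by
    by_contra hcon
    push Not at hcon
    have h4 : ζ.support ⊆ {a, b} := by
      intro k hk
      by_cases h : k = a
      · rw [h]; exact Finset.mem_insert_self _ _
      · rw [hcon k hk h]; exact Finset.mem_insert_of_mem (Finset.mem_singleton_self _)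
    have h5 := Finset.card_le_card h4
    have h6 : ({a, b} : Finset (Fin 10)).card ≤ 2 := Finset.card_le_two
    omega
  have h4 := orbit_ge hPA cP hab htr hn hP hi1 hi2
  have h5 : orbit P i ⊆ ((ζ.support \ {a, b} : Finset (Fin 10)) : Set (Fin 10)) := by
    rintro _ ⟨σ, rfl⟩
    show σ.1 i ∈ ((ζ.support \ {a, b} : Finset (Fin 10)) : Set (Fin 10))
    rw [Finset.mem_coe, Finset.mem_sdiff, Perm.mem_support]
    constructor
    · have h6 : ζ (σ.1 i) = σ.1 (ζ i) := (congrArg (fun f : Perm (Fin 10) => f i) (hc σ.1 σ.2)).symm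
      rw [h6]
      exact fun h => (Perm.mem_support.1 hi) (σ.1.injective h)
    · intro h6
      rw [Finset.mem_insert, Finset.mem_singleton] at h6
      have h7 := hP σ.1⁻¹ (inv_mem σ.2) _ h6
      have h8 : σ.1⁻¹ (σ.1 i) = i := σ.1.symm_apply_apply i
      rw [h8] at h7
      rcases h7 with h7 | h7
      · exact hi1 h7
      · exact hi2 h7
  have h6 := Set.ncard_le_ncard h5 (Set.toFinite _)
  rw [Set.ncard_coe_finset] at h6
  have h7 : (ζ.support \ {a, b}).card ≤ ζ.support.card := Finset.card_le_card Finset.sdiff_subset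
  have h8 : ζ.cycleType = Multiset.replicate 4 2 := by
    rcases h3 with h | h
    · exfalso
      have h9 : ζ.support.card = 4 := by rw [← Perm.sum_cycleType, h]; decide
      omega
    · exact h
  have h9 : ζ.support.card = 8 := by rw [← Perm.sum_cycleType, h8]; decide
  have h10 : ζ.support \ {a, b} = ζ.support := Finset.eq_of_subset_of_card_le Finset.sdiff_subset (by omega)
  have h11 : ∀ j, j = a ∨ j = b → ζ j = j := by
    intro j hj
    by_contra hne
    have h12 : j ∈ ζ.support \ {a, b} := by rw [h10]; exact Perm.mem_support.2 hne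
    rw [Finset.mem_sdiff, Finset.mem_insert, Finset.mem_singleton] at h12
    exact h12.2 hj
  exact ⟨h8, h11 a (Or.inl rfl), h11 b (Or.inr rfl)⟩

end Cfsg.Agent.H605.A10
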