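import Mathlib
import Cfsg.Prelude.Def_Solvable

/-!
# The 2-core of the centraliser of `(0 1)(2 3)(4 5)(6 7)` in `A₁₀` (helper605)

* `mem_of_norm` : an element normalising `O₂(C(z))` preserves the two fixed points of `z`.
-/

set_option autoImplicit false
set_option linter.unusedSectionVars false

namespace Cfsg.Agent.H605.A10

open Subgroup Cfsg Equiv

/-- the involution `(0 1)(2 3)(4 5)(6 7)` -/
def z0 : Perm (Fin 10) := swap 0 1 * swap 2 3 * swap 4 5 * swap 6 7

/-- the involution `(0 2)(1 3)(4 6)(5 7)` -/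
def v1 : Perm (Fin 10) := swap 0 2 * swap 1 3 * swap 4 6 * swap 5 7

/-- the pair containing a point -/
def pr4 : Fin 10 → Fin 4 := ![0, 0, 1, 1, 2, 2, 3, 3, 0, 0]

/-- the first point of a pair -/
def rp : Fin 4 → Fin 10 := ![0, 2, 4, 6]

theorem z0_ne_iff : ∀ j : Fin 10, z0 j ≠ j ↔ j.1 < 8 := by decide

theorem pr4_z0 : ∀ j : Fin 10, pr4 (z0 j) = pr4 j := by decide

theorem pr4_rp : ∀ i : Fin 4, pr4 (rp i) = i := by decide

theorem rp_lt : ∀ i : Fin 4, (rp i).1 < 8 := by decide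

theorem eq_rp : ∀ j : Fin 10, j.1 < 8 → j = rp (pr4 j) ∨ j = z0 (rp (pr4 j)) := by decide

theorem eq_of_pr4 : ∀ i j : Fin 10, i.1 < 8 → j.1 < 8 → pr4 i = pr4 j → i = j ∨ i = z0 j := by decide

theorem z0_z0 : ∀ j : Fin 10, z0 (z0 j) = j := by decide

section one

variable {x y : Perm (Fin 10)}

theorem lt_of_comm (hx : x * z0 = z0 * x) {j : Fin 10} : (x j).1 < 8 ↔ j.1 < 8 := by
  rw [← z0_ne_iff, ← z0_ne_iff]
  have h1 : z0 (x j) = x (z0 j) := by
    have := congrArg (fun f : Perm (Fin 10) => f j) hx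
    exact this.symm
  rw [h1]
  exact x.injective.ne_iff

theorem pr4_comm (hx : x * z0 = z0 * x) {j : Fin 10} (hj : j.1 < 8) : pr4 (x j) = pr4 (x (rp (pr4 j))) := by
  rcases eq_rp j hj with h | h
  · rw [← h]
  · have h1 : ∀ k, z0 (x k) = x (z0 k) := fun k => (congrArg (fun f : Perm (Fin 10) => f k) hx).symm
    conv_lhs => rw [h]
    rw [← h1, pr4_z0]

end one

/-- the Klein four group -/
def isV (s : Perm (Fin 4)) : Prop := s * s = 1 ∧ (s = 1 ∨ ∀ i, s i ≠ i)

instance : DecidablePred isV := fun s => inferInstanceAs (Decidable (s * s = 1 ∧ (s = 1 ∨ ∀ i, s i ≠ i)))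

/-- the Klein four group -/
def V4 : Subgroup (Perm (Fin 4)) where
  carrier := {s | isV s}
  mul_mem' {a b} ha hb := by
    have h : ∀ a b : Perm (Fin 4), isV a → isV b → isV (a * b) := by decide +kernel
    exact h a b ha hb
  one_mem' := by
    show isV 1
    decide
  inv_mem' {a} ha := by
    have h : ∀ a : Perm (Fin 4), isV a → isV a⁻¹ := by decide
    exact h a ha

instance : V4.Normal := ⟨by
  intro n hn g
  have h : ∀ a g : Perm (Fin 4), isV a → isV (g * a * g⁻¹) := by decide +kernel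
  exact h n g hn⟩

variable {K : Type*} [Group K] [Finite K] (f : K →* Perm (Fin 10)) {z : K} (hz : f z = z0)

include hz in
theorem comm_z0 (x : ↥(centralizer ({z} : Set K))) : f x.1 * z0 = z0 * f x.1 := by
  rw [← hz, ← map_mul, ← map_mul, mem_centralizer_singleton_iff.1 x.2]

/-- the action on the four pairs -/
def ind : ↥(centralizer ({z} : Set K)) →* Function.End (Fin 4) where
  toFun x := fun i => pr4 (f x.1 (rp i))
  map_one' := by
    funext i
    show pr4 (f 1 (rp i)) = i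
    rw [map_one]
    exact pr4_rp i
  map_mul' x y := by
    funext i
    show pr4 (f (x.1 * y.1) (rp i)) = pr4 (f x.1 (rp (pr4 (f y.1 (rp i)))))
    rw [map_mul]
    show pr4 (f x.1 (f y.1 (rp i))) = _
    exact pr4_comm (comm_z0 f hz x) ((lt_of_comm (comm_z0 f hz y)).2 (rp_lt i))

/-- the action on the four pairs -/
def ind' : ↥(centralizer ({z} : Set K)) →* Perm (Fin 4) :=
  (Equiv.Perm.equivUnitsEnd (α := Fin 4)).symm.toMonoidHom.comp (ind f hz).toHomUnits

theorem ind'_apply (x : ↥(centralizer ({z} : Set K))) (i : Fin 4) : ind' f hz x i = pr4 (f x.1 (rp i)) := rfl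

theorem pr4_ind (x : ↥(centralizer ({z} : Set K))) {j : Fin 10} (hj : j.1 < 8) :
    pr4 (f x.1 j) = ind' f hz x (pr4 j) := by
  rw [ind'_apply]
  exact pr4_comm (comm_z0 f hz x) hj

/-- the preimage of the Klein four group is a 2-group -/
theorem isPGroup_V (hf : Function.Injective f) : IsPGroup 2 ↥(V4.comap (ind' f hz)) := by
  rintro ⟨x, hx⟩
  refine ⟨2, Subtype.ext (Subtype.ext (hf ?_))⟩
  have hx2 : ind' f hz x * ind' f hz x = 1 := (show isV (ind' f hz x) from hx).1
  show f (x.1 ^ 4) = f 1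
  rw [map_one, map_pow]
  set X := f x.1 with hX
  have hc : X * z0 = z0 * X := comm_z0 f hz x
  have h1 : ∀ k, z0 (X k) = X (z0 k) := fun k => (congrArg (fun f : Perm (Fin 10) => f k) hc).symm
  have h2 : ∀ j : Fin 10, j.1 < 8 → X (X j) = j ∨ X (X j) = z0 j := by
    intro j hj
    refine eq_of_pr4 _ _ ((lt_of_comm hc).2 ((lt_of_comm hc).2 hj)) hj ?_
    rw [pr4_ind f hz x ((lt_of_comm hc).2 hj), pr4_ind f hz x hj, ← Perm.mul_apply, hx2, Perm.one_apply]
  have h3 : ∀ j : Fin 10, ¬ j.1 < 8 → X (X j) = j := by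
    intro j hj
    have h4 : ¬ (X j).1 < 8 := fun h => hj ((lt_of_comm hc).1 h)
    have h5 : ¬ (X (X j)).1 < 8 := fun h => h4 ((lt_of_comm hc).1 h)
    have h6 : ∀ a b c : Fin 10, ¬ a.1 < 8 → ¬ b.1 < 8 → ¬ c.1 < 8 → (a = b ↔ b = c) → c = a := by decide
    exact h6 _ _ _ hj h4 h5 ⟨fun h => by rw [← h]; exact h, fun h => X.injective h⟩
  refine Equiv.ext fun j => ?_
  have h7 : (X ^ 4) j = X (X (X (X j))) := rfl
  rw [h7, Perm.one_apply]
  by_cases hj : j.1 < 8
  · rcases h2 j hj with h | h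
    · rw [h, h]
    · rw [h, ← h1, ← h1, h, z0_z0]
  · rw [h3 j hj, h3 j hj]

/-- the 2-core of the centraliser -/
noncomputable abbrev QQ (z : K) : Subgroup K :=
  (pCore 2 ↥(centralizer ({z} : Set K))).map (centralizer ({z} : Set K)).subtype

theorem le_pCore {x : ↥(centralizer ({z} : Set K))} (hf : Function.Injective f) (hx : isV (ind' f hz x)) :
    x.1 ∈ QQ z := by
  refine ⟨x, ?_, rfl⟩
  have h1 : V4.comap (ind' f hz) ≤ pCore 2 ↥(centralizer ({z} : Set K)) :=
    le_sSup ⟨inferInstance, isPGroup_V f hz hf⟩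
  exact h1 (show x ∈ V4.comap (ind' f hz) from hx)

theorem QQ_le : QQ z ≤ centralizer ({z} : Set K) := map_subtype_le _

include hz in
/-- **An element normalising `O₂(C(z))` preserves the fixed points of `z`.** -/
theorem mem_of_norm (hf : Function.Injective f) {v : K} (hv : f v = v1) {g : K}
    (hg : g ∈ normalizer (QQ z : Set K)) {j : Fin 10} (hj : ¬ j.1 < 8) : ¬ (f g j).1 < 8 := by
  intro hlt
  have hzC : z ∈ centralizer ({z} : Set K) := by rw [mem_centralizer_singleton_iff]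
  have hvC : v ∈ centralizer ({z} : Set K) := by
    rw [mem_centralizer_singleton_iff]
    apply hf
    rw [map_mul, map_mul, hv, hz]
    decide
  have hzQ : z ∈ QQ z := le_pCore f hz (x := ⟨z, hzC⟩) hf (by
    have h1 : ind' f hz ⟨z, hzC⟩ = 1 := by
      refine Equiv.ext fun i => ?_
      rw [ind'_apply]
      show pr4 (f z (rp i)) = i
      rw [hz, pr4_z0, pr4_rp]
    rw [h1]
    decide)
  have hvQ : v ∈ QQ z := le_pCore f hz (x := ⟨v, hvC⟩) hf (by
    have h1 : ind' f hz ⟨v, hvC⟩ = swap 0 1 * swap 2 3 := by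
      refine Equiv.ext fun i => ?_
      rw [ind'_apply]
      show pr4 (f v (rp i)) = _
      rw [hv]
      revert i
      decide
    rw [h1]
    decide)
  -- the elements of `Q` preserve the fixed points
  have hQ : ∀ q ∈ QQ z, ¬ (f (g⁻¹ * q * g) j).1 < 8 := by
    intro q hq hcon
    have h1 : g⁻¹ * q * g ∈ QQ z := by
      have h3 := (mem_normalizer_iff.1 (inv_mem hg) q).1 hq
      rwa [inv_inv] at h3
    have h2 := comm_z0 f hz ⟨_, QQ_le h1⟩
    exact hj ((lt_of_comm h2).1 hcon)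
  have h1 := hQ 1 (one_mem _)
  have h2 := hQ z hzQ
  have h3 := hQ v hvQ
  have e : ∀ q : K, f (g⁻¹ * q * g) j = (f g)⁻¹ (f q (f g j)) := by
    intro q
    rw [map_mul, map_mul, map_inv]
    rfl
  rw [e] at h1 h2 h3
  rw [map_one, Perm.one_apply] at h1
  rw [hz] at h2
  rw [hv] at h3
  have h4 : ∀ a b c : Fin 10, ¬ a.1 < 8 → ¬ b.1 < 8 → ¬ c.1 < 8 → a = b ∨ a = c ∨ b = c := by decide
  have h5 : ∀ k : Fin 10, k.1 < 8 → k ≠ z0 k ∧ k ≠ v1 k ∧ z0 k ≠ v1 k := by decide
  obtain ⟨h6, h7, h8⟩ := h5 (f g j) hlt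
  rcases h4 _ _ _ h1 h2 h3 with h | h | h
  · exact h6 ((f g)⁻¹.injective h)
  · exact h7 ((f g)⁻¹.injective h)
  · exact h8 ((f g)⁻¹.injective h)

end Cfsg.Agent.H605.A10
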