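import Cfsg.Agent.H605.A10.Cyc
import Cfsg.Agent.H605.A10.Std

/-!
# The pair `(A₁₀, A₈)`, `p = 2` (helper605, for S2892)

* `kill_a10` : `N_K(O₂(C_K(z))) ≤ N_K(L)`.
-/

set_option autoImplicit false

namespace Cfsg.Agent.H605.A10

open Subgroup Cfsg Equiv

universe u

theorem kill_a10 {K : Type u} [Group K] [Finite K] (e10 : K ≃* alternatingGroup (Fin 10)) {L : Subgroup K}
    (e8 : L ≃* alternatingGroup (Fin 8)) {S : Sylow 2 K} (hS : (S : Subgroup K) ≤ normalizer (L : Set K)) {z : K}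
    (hz1 : z ≠ 1) (hzS : z ∈ S) (hzc : ∀ s ∈ S, s * z = z * s) :
    normalizer (((pCore 2 (centralizer ({z} : Set K))).map (centralizer ({z} : Set K)).subtype : Subgroup K) : Set K) ≤
      normalizer (L : Set K) := by
  set f : K →* Perm (Fin 10) := (alternatingGroup (Fin 10)).subtype.comp e10.toMonoidHom with hf
  have hfi : Function.Injective f := (Subgroup.subtype_injective _).comp e10.injective
  have hfr : ∀ σ : Perm (Fin 10), Perm.sign σ = 1 → ∃ x, f x = σ := fun σ hσ =>
    ⟨e10.symm ⟨σ, hσ⟩, by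
      show (e10 (e10.symm ⟨σ, hσ⟩)).1 = σ
      rw [MulEquiv.apply_symm_apply]⟩
  have hfs : ∀ x, Perm.sign (f x) = 1 := fun x => (e10 x).2
  have hs8 : IsSimpleGroup ↥(alternatingGroup (Fin 8)) := alternatingGroup.isSimpleGroup (by
    rw [Nat.card_eq_fintype_card, Fintype.card_fin]; norm_num)
  have eL : ↥(L.map f) ≃* ↥(alternatingGroup (Fin 8)) := (L.equivMapOfInjective f hfi).symm.trans e8
  have hsG : IsSimpleGroup ↥(L.map f) := eL.isSimpleGroup
  have cG : Nat.card ↥(L.map f) = 20160 := by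
    rw [Nat.card_congr eL.toEquiv]
    have h3 : 2 * Nat.card ↥(alternatingGroup (Fin 8)) = Nat.factorial 8 := by
      rw [Nat.card_eq_fintype_card, two_mul_card_alternatingGroup, Fintype.card_perm, Fintype.card_fin]
    have h4 : Nat.factorial 8 = 40320 := rfl
    omega
  have cK : Nat.card K = 1814400 := by rw [Nat.card_congr e10.toEquiv, card_alt10]
  have hA : ∀ H : Subgroup K, H.map f ≤ alternatingGroup (Fin 10) := by
    rintro H _ ⟨x, -, rfl⟩
    exact hfs x
  have cP : Nat.card ↥((S : Subgroup K).map f) = 128 := by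
    rw [Nat.card_congr ((S : Subgroup K).equivMapOfInjective f hfi).symm.toEquiv]
    have h1 := S.card_eq_multiplicity
    rw [cK] at h1
    have h2 : (1814400 : ℕ).factorization 2 = 7 := by
      have h3 : (1814400 : ℕ) = 2 ^ 7 * 14175 := by norm_num
      rw [h3, Nat.factorization_mul (by norm_num) (by norm_num), Nat.factorization_pow,
        Nat.Prime.factorization Nat.prime_two]
      simp [Nat.factorization_eq_zero_of_not_dvd]
    rw [h2] at h1
    rw [h1]; norm_num
  have hPG : ∀ σ ∈ (S : Subgroup K).map f, ∀ τ ∈ L.map f, σ * τ * σ⁻¹ ∈ L.map f := by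
    rintro _ ⟨s, hs, rfl⟩ _ ⟨l, hl, rfl⟩
    refine ⟨s * l * s⁻¹, (mem_normalizer_iff.1 (hS hs) l).1 hl, ?_⟩
    rw [map_mul, map_mul, map_inv]
  obtain ⟨a, b, hab, hG, htr⟩ := exists_pair (L.map f) cG ((S : Subgroup K).map f) (hA _) cP hPG (hA _)
  have hinv : ∀ x ∈ normalizer (L : Set K), ∀ j, j = a ∨ j = b → f x j = a ∨ f x j = b := by
    intro x hx j hj
    refine pair_inv hG htr hab (fun τ hτ => ?_) hj
    obtain ⟨l, hl, rfl⟩ := hτ
    refine ⟨x⁻¹ * l * x, ?_, ?_⟩
    · have := (mem_normalizer_iff.1 (inv_mem hx) l).1 hl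
      rwa [inv_inv] at this
    · rw [map_mul, map_mul, map_inv]
  have hP : ∀ σ ∈ (S : Subgroup K).map f, ∀ j, j = a ∨ j = b → σ j = a ∨ σ j = b := by
    rintro _ ⟨s, hs, rfl⟩
    exact hinv s (hS hs)
  obtain ⟨hz2, hza, hzb⟩ := zeta (hA _) cP hG htr hab hP (ζ := f z) ⟨z, hzS, rfl⟩
    (fun h => hz1 (hfi (h.trans (map_one f).symm))) (by
      rintro _ ⟨s, hs, rfl⟩
      rw [← map_mul, ← map_mul, hzc s hs])
  -- the standard position
  have hz0 : z0.cycleType = Multiset.replicate 4 2 := by decide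
  obtain ⟨c, hc⟩ := isConj_iff.1 (Perm.isConj_iff_cycleType_eq.2 (hz2.trans hz0.symm))
  let f' : K →* Perm (Fin 10) := (MulAut.conj c).toMonoidHom.comp f
  have hf' : ∀ x, f' x = c * f x * c⁻¹ := fun x => rfl
  have hf'i : Function.Injective f' := (MulAut.conj c).injective.comp hfi
  have hzz : f' z = z0 := hc
  obtain ⟨v, hv⟩ : ∃ v, f' v = v1 := by
    obtain ⟨x, hx⟩ := hfr (c⁻¹ * v1 * c) (by
      rw [map_mul, map_mul, map_inv, show Perm.sign v1 = 1 from by decide, mul_one, inv_mul_cancel])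
    exact ⟨x, by rw [hf', hx]; group⟩
  -- the fixed points
  have hfx : ∀ j, f z j = j → ¬ (c j).1 < 8 := by
    intro j hj hlt
    apply (z0_ne_iff (c j)).2 hlt
    rw [← hc]
    show c (f z (c⁻¹ (c j))) = c j
    have h1 : c⁻¹ (c j) = j := c.symm_apply_apply j
    rw [h1, hj]
  have hca := hfx a hza
  have hcb := hfx b hzb
  have hcab : ∀ k : Fin 10, ¬ k.1 < 8 → k = c a ∨ k = c b := by
    have h1 : ∀ x y k : Fin 10, x ≠ y → ¬ x.1 < 8 → ¬ y.1 < 8 → ¬ k.1 < 8 → k = x ∨ k = y := by decide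
    exact fun k hk => h1 (c a) (c b) k (fun h => hab (c.injective h)) hca hcb hk
  intro g hg
  have h1 : ∀ j, j = a ∨ j = b → f g j = a ∨ f g j = b := by
    intro j hj
    have h2 : ¬ (c j).1 < 8 := by rcases hj with rfl | rfl <;> assumption
    have h3 := mem_of_norm f' hzz hf'i hv hg h2
    have h4 : f' g (c j) = c (f g j) := by
      show c (f g (c⁻¹ (c j))) = c (f g j)
      have h1 : c⁻¹ (c j) = j := c.symm_apply_apply j
      rw [h1]
    rw [h4] at h3
    rcases hcab _ h3 with h | h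
    · exact Or.inl (c.injective h)
    · exact Or.inr (c.injective h)
  have key : ∀ g : K, (∀ j, j = a ∨ j = b → f g j = a ∨ f g j = b) → ∀ l ∈ L, g⁻¹ * l * g ∈ L := by
    intro g hg l hl
    have h2 := (hG (f l)).1 ⟨l, hl, rfl⟩
    have h3 : f (g⁻¹ * l * g) ∈ L.map f := by
      rw [hG]
      refine ⟨hfs _, ?_, ?_⟩
      · rw [map_mul, map_mul, map_inv]
        show (f g)⁻¹ (f l (f g a)) = a
        have h4 : f l (f g a) = f g a := by
          rcases hg a (Or.inl rfl) with h | h <;> rw [h]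
          · exact h2.2.1
          · exact h2.2.2
        rw [h4]
        exact (f g).symm_apply_apply a
      · rw [map_mul, map_mul, map_inv]
        show (f g)⁻¹ (f l (f g b)) = b
        have h4 : f l (f g b) = f g b := by
          rcases hg b (Or.inr rfl) with h | h <;> rw [h]
          · exact h2.2.1
          · exact h2.2.2
        rw [h4]
        exact (f g).symm_apply_apply b
    obtain ⟨l', hl', h4⟩ := h3
    rwa [← hfi h4]
  have h2 : g⁻¹ ∈ normalizer (L : Set K) := by
    refine mem_normalizer_fintype fun l hl => ?_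
    rw [inv_inv]
    exact key g h1 l hl
  rw [← inv_inv g]
  exact inv_mem h2

end Cfsg.Agent.H605.A10
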